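import Mathlib.LinearAlgebra.Matrix.Cartan
import Mathlib.GroupTheory.Perm.Fin
import Mathlib.Algebra.Group.Subgroup.ZPowers.Basic
import Cfsg.Agent.Prune
set_option linter.all false
prune_inst 0x7f00000000000000000000000000000000000000000000000000000000000000000000000000000000000000000000000000000000000000000000000000000000000000000000000000000000000000003fffffffffffffffffffffffffffbeffbdffffffff
open scoped Cfsg.Agent.FastGrp

/-!
# MO/Fm: the combinatorics of the Dynkin diagrams (helper42)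

* `con_of` : connectedness from a height function;
* `ex_of`, `exB`, `exC`, `exD` : the exponent of the centre from a multiple of the inverse matrix;
* `syB`, `syD`, `syE6`, ... : the symmetries of the Coxeter diagrams.
-/

set_option autoImplicit false

namespace Cfsg.Agent.MO.Fm.Dia

open Matrix CartanMatrix Equiv

/-! ### connectedness -/

theorem con_of {I : Type} (A : I → I → ℤ) (h : I → ℕ) (r : I)
    (H : ∀ i, i = r ∨ ∃ j, h j < h i ∧ A i j ≠ 0 ∧ A j i ≠ 0) (J : Set I) (hJ : J.Nonempty)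
    (hc : ∀ i ∈ J, ∀ j, A i j ≠ 0 → j ∈ J) : J = Set.univ := by
  have key : ∀ (k : ℕ) (i : I), h i = k → (i ∈ J ↔ r ∈ J) := fun k => by
    induction k using Nat.strong_induction_on with
    | _ k ih =>
      intro i hi
      rcases H i with rfl | ⟨j, h1, h2, h3⟩
      · rfl
      · exact Iff.trans ⟨fun h4 => hc i h4 j h2, fun h4 => hc j h4 i h3⟩ (ih _ (hi ▸ h1) j rfl)
  obtain ⟨i, hi⟩ := hJ
  exact Set.eq_univ_of_forall fun j => (key _ j rfl).2 ((key _ i rfl).1 hi)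

theorem stepB {n : ℕ} (hn : 0 < n) (i : Fin n) : i = ⟨0, hn⟩ ∨ ∃ j : Fin n, j.val < i.val ∧ B n i j ≠ 0 ∧ B n j i ≠ 0 := by
  rcases i with ⟨_ | i, hi⟩
  · exact Or.inl rfl
  · refine Or.inr ⟨⟨i, by omega⟩, Nat.lt_succ_self i, ?_, ?_⟩ <;>
      simp only [B, of_apply, Fin.ext_iff] <;> split_ifs <;> omega

theorem stepC {n : ℕ} (hn : 0 < n) (i : Fin n) : i = ⟨0, hn⟩ ∨ ∃ j : Fin n, j.val < i.val ∧ C n i j ≠ 0 ∧ C n j i ≠ 0 := by
  rcases i with ⟨_ | i, hi⟩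
  · exact Or.inl rfl
  · refine Or.inr ⟨⟨i, by omega⟩, Nat.lt_succ_self i, ?_, ?_⟩ <;>
      simp only [C, of_apply, Fin.ext_iff] <;> split_ifs <;> omega

theorem stepD {n : ℕ} (hn : 4 ≤ n) (i : Fin n) :
    i = ⟨0, by omega⟩ ∨ ∃ j : Fin n, j.val < i.val ∧ D n i j ≠ 0 ∧ D n j i ≠ 0 := by
  rcases i with ⟨_ | i, hi⟩
  · exact Or.inl rfl
  · refine Or.inr ⟨⟨min i (n - 3), by omega⟩, by simp only; omega, ?_, ?_⟩ <;>
      simp only [D, of_apply, Fin.ext_iff] <;> repeat' first | (exfalso; omega) | split | omega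

/-! ### the centre -/

theorem pow_of {K : Type} [CommGroup K] {n : ℕ} (A : Matrix (Fin n) (Fin n) ℤ) (y : Fin n → K)
    (h : ∀ j, ∏ i, y i ^ A i j = 1) (v : Fin n → ℤ) : ∏ k, y k ^ ∑ j, A k j * v j = 1 := by
  have h1 : ∀ k, y k ^ ∑ j, A k j * v j = ∏ j, (y k ^ A k j) ^ v j := fun k => by
    simp only [← _root_.zpow_mul]
    exact map_prod (zpowersHom K (y k)) (fun j => Multiplicative.ofAdd (A k j * v j)) Finset.univ
  simp only [h1]
  rw [Finset.prod_comm]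
  exact Finset.prod_eq_one fun j _ => by rw [Finset.prod_zpow, h, _root_.one_zpow]

theorem ex_of {K : Type} [CommGroup K] {n : ℕ} (A V : Matrix (Fin n) (Fin n) ℤ) (z : ℕ)
    (hV : ∀ k i, ∑ j, A k j * V j i = if k = i then (z : ℤ) else 0) (y : Fin n → K) (h : ∀ j, ∏ i, y i ^ A i j = 1)
    (i : Fin n) : y i ^ z = 1 := by
  have h1 := pow_of A y h fun j => V j i
  simp only [hV, pow_ite, zpow_zero, Finset.prod_ite_eq', Finset.mem_univ, if_true, zpow_natCast] at h1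
  exact h1

theorem sum_at {n : ℕ} (m : ℕ) (c : ℤ) (v : ℕ → ℤ) :
    ∑ j : Fin n, (if j.val = m then c else 0) * v j.val = if m < n then c * v m else 0 := by
  split_ifs with h
  · rw [Finset.sum_eq_single (⟨m, h⟩ : Fin n)]
    · rw [if_pos rfl]
    · intro j _ hj
      rw [if_neg fun h1 => hj (Fin.ext h1), zero_mul]
    · simp only [_root_.Finset.mem_univ, _root_.not_true_eq_false, ↓ _root_.reduceIte, _root_.mul_eq_zero, _root_.IsEmpty.forall_iff]
  · exact Finset.sum_eq_zero fun j _ => by rw [if_neg (by omega), zero_mul]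

/-- twice the inverse matrix -/
def vB (n i j : ℕ) : ℤ := if j + 1 = n then i + 1 else 2 * (min (i : ℤ) j + 1)

/-- twice the inverse matrix -/
def vC (n i j : ℕ) : ℤ := if i + 1 = n then j + 1 else 2 * (min (i : ℤ) j + 1)

/-- four times the inverse matrix -/
def vD (n i j : ℕ) : ℤ :=
  if i + 2 < n then (if j + 2 < n then 4 * (min (i : ℤ) j + 1) else 2 * (i + 1))
  else if j + 2 < n then 2 * (j + 1) else if i = j then n else n - 2

theorem exB {K : Type} [CommGroup K] {n : ℕ} (y : Fin n → K) (h : ∀ j, ∏ i, y i ^ B n i j = 1) (i : Fin n) :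
    y i ^ 2 = 1 := by
  refine ex_of (B n) (fun j i => vB n i j) 2 (fun k i => ?_) y h i
  have h1 : ∀ j : Fin n, B n k j = (if j.val = k.val then 2 else 0) +
      (if j.val = k.val + 1 then (if k.val + 2 = n then -2 else -1) else 0) +
      (if j.val = k.val - 1 then (if k.val = 0 then 0 else -1) else 0) := fun j => by
    simp only [B, of_apply, Fin.ext_iff]
    repeat' first | (exfalso; omega) | split
    all_goals omega
  have h2 := k.2
  have h3 := i.2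
  simp only [h1, add_mul, Finset.sum_add_distrib, sum_at _ _ (vB n i)]
  simp only [vB, Fin.ext_iff]
  repeat' first | (exfalso; omega) | split
  all_goals omega

theorem exC {K : Type} [CommGroup K] {n : ℕ} (y : Fin n → K) (h : ∀ j, ∏ i, y i ^ C n i j = 1) (i : Fin n) :
    y i ^ 2 = 1 := by
  refine ex_of (C n) (fun j i => vC n i j) 2 (fun k i => ?_) y h i
  have h1 : ∀ j : Fin n, C n k j = (if j.val = k.val then 2 else 0) + (if j.val = k.val + 1 then -1 else 0) +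
      (if j.val = k.val - 1 then (if k.val = 0 then 0 else if k.val + 1 = n then -2 else -1) else 0) := fun j => by
    simp only [C, of_apply, Fin.ext_iff]
    repeat' first | (exfalso; omega) | split
    all_goals omega
  have h2 := k.2
  have h3 := i.2
  simp only [h1, add_mul, Finset.sum_add_distrib, sum_at _ _ (vC n i)]
  simp only [vC, Fin.ext_iff]
  repeat' first | (exfalso; omega) | split
  all_goals omega

theorem D_row {n : ℕ} (hn : 4 ≤ n) (k : Fin n) (v : ℕ → ℤ) : ∑ j : Fin n, D n k j * v j = 2 * v k -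
    (if k.val + 2 < n then v (k + 1) else 0) - (if k.val = 0 then 0 else v (min (k - 1) (n - 3))) -
    if k.val + 3 = n then v (k + 2) else 0 := by
  have h2 := k.2
  have h1 : ∀ j : Fin n, D n k j = (if j.val = k.val then 2 else 0) +
      (if j.val = k.val + 1 then (if k.val + 2 < n then -1 else 0) else 0) +
      (if j.val = min (k.val - 1) (n - 3) then (if k.val = 0 then 0 else -1) else 0) +
      (if j.val = k.val + 2 then (if k.val + 3 = n then -1 else 0) else 0) := fun j => by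
    have h3 := j.2
    simp only [D, of_apply, Fin.ext_iff]
    repeat' first | (exfalso; omega) | split
    all_goals omega
  simp only [h1, add_mul, Finset.sum_add_distrib, sum_at _ _ v]
  repeat' first | (exfalso; omega) | split
  all_goals omega

theorem exD {K : Type} [CommGroup K] {n : ℕ} (hn : 4 ≤ n) (y : Fin n → K) (h : ∀ j, ∏ i, y i ^ D n i j = 1)
    (i : Fin n) : y i ^ 4 = 1 := by
  refine ex_of (D n) (fun j i => vD n i j) 4 (fun k i => ?_) y h i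
  have h2 := k.2
  have h3 := i.2
  rw [D_row hn k (vD n i)]
  by_cases h4 : i.val + 2 < n
  · simp only [vD, Fin.ext_iff, if_pos h4]
    repeat' first | (exfalso; omega) | split
    all_goals omega
  · simp only [vD, Fin.ext_iff, if_neg h4]
    repeat' first | (exfalso; omega) | split
    all_goals omega

theorem exE6 {K : Type} [CommGroup K] (y : Fin 6 → K) (h : ∀ j, ∏ i, y i ^ E₆ i j = 1) (i : Fin 6) : y i ^ 3 = 1 :=
  ex_of E₆ !![4, 3, 5, 6, 4, 2; 3, 6, 6, 9, 6, 3; 5, 6, 10, 12, 8, 4; 6, 9, 12, 18, 12, 6; 4, 6, 8, 12, 10, 5;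
    2, 3, 4, 6, 5, 4] 3 (by decide +kernel) y h i

theorem exE7 {K : Type} [CommGroup K] (y : Fin 7 → K) (h : ∀ j, ∏ i, y i ^ E₇ i j = 1) (i : Fin 7) : y i ^ 2 = 1 :=
  ex_of E₇ !![4, 4, 6, 8, 6, 4, 2; 4, 7, 8, 12, 9, 6, 3; 6, 8, 12, 16, 12, 8, 4; 8, 12, 16, 24, 18, 12, 6;
    6, 9, 12, 18, 15, 10, 5; 4, 6, 8, 12, 10, 8, 4; 2, 3, 4, 6, 5, 4, 3] 2 (by decide +kernel) y h i

theorem exE8 {K : Type} [CommGroup K] (y : Fin 8 → K) (h : ∀ j, ∏ i, y i ^ E₈ i j = 1) (i : Fin 8) : y i ^ 1 = 1 :=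
  ex_of E₈ !![4, 5, 7, 10, 8, 6, 4, 2; 5, 8, 10, 15, 12, 9, 6, 3; 7, 10, 14, 20, 16, 12, 8, 4;
    10, 15, 20, 30, 24, 18, 12, 6; 8, 12, 16, 24, 20, 15, 10, 5; 6, 9, 12, 18, 15, 12, 8, 4; 4, 6, 8, 12, 10, 8, 6, 3;
    2, 3, 4, 6, 5, 4, 3, 2] 1 (by decide +kernel) y h i

theorem exF4 {K : Type} [CommGroup K] (y : Fin 4 → K) (h : ∀ j, ∏ i, y i ^ F₄ i j = 1) (i : Fin 4) : y i ^ 1 = 1 :=
  ex_of F₄ !![2, 3, 4, 2; 3, 6, 8, 4; 2, 4, 6, 3; 1, 2, 3, 2] 1 (by decide +kernel) y h i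

theorem exG2 {K : Type} [CommGroup K] (y : Fin 2 → K) (h : ∀ j, ∏ i, y i ^ G₂ i j = 1) (i : Fin 2) : y i ^ 1 = 1 :=
  ex_of G₂ !![2, 3; 1, 2] 1 (by decide +kernel) y h i

theorem e6 {K : Type} [CommGroup K] (y : Fin 6 → K) (h : ∀ j, ∏ i, y i ^ E₆ i j = 1) (h0 : y 0 = 1) : y = 1 := by
  have h1 : ∀ i k : Fin 6, ∑ j, E₆ k j * (!![0, 1, -1, 2, 0, -2; 0, 2, 0, 3, 1, -1; 0, 2, 0, 4, 1, -2; 0, 3, 0, 6, 2, -2;
      0, 2, 0, 4, 2, -1; 0, 1, 0, 2, 1, 0] : Matrix (Fin 6) (Fin 6) ℤ) j i =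
      (if k = i then 1 else 0) + if k = 0 then ![-1, 0, -2, 0, -1, -2] i else 0 := by decide +kernel
  funext i
  have h2 := pow_of E₆ y h fun j => (!![0, 1, -1, 2, 0, -2; 0, 2, 0, 3, 1, -1; 0, 2, 0, 4, 1, -2; 0, 3, 0, 6, 2, -2;
      0, 2, 0, 4, 2, -1; 0, 1, 0, 2, 1, 0] : Matrix (Fin 6) (Fin 6) ℤ) j i
  simp only [h1, _root_.zpow_add, Finset.prod_mul_distrib, pow_ite, zpow_zero, Finset.prod_ite_eq', Finset.mem_univ,
    if_true, h0, _root_.one_zpow, mul_one, zpow_one] at h2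
  exact h2

/-! ### symmetries -/

/-- symmetries of the Coxeter diagram -/
abbrev Sm {n : ℕ} (A : Matrix (Fin n) (Fin n) ℤ) (σ : Perm (Fin n)) : Prop :=
  ∀ i j, A (σ i) (σ j) * A (σ j) (σ i) = A i j * A j i

/-- the bonds in the types `B`, `C` -/
def mB (n a b : ℕ) : ℤ :=
  if a = b then 4 else if a + 1 = b ∨ b + 1 = a then (if a + 1 = n ∨ b + 1 = n then 2 else 1) else 0

/-- the bonds in the type `D` -/
def mD (n a b : ℕ) : ℤ :=
  if a = b then 4 else if (a + 1 = b ∧ b + 1 < n) ∨ (b + 1 = a ∧ a + 1 < n) ∨ (a + 3 = n ∧ b + 1 = n) ∨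
    (b + 3 = n ∧ a + 1 = n) then 1 else 0

theorem B_mul {n : ℕ} (i j : Fin n) : B n i j * B n j i = mB n i j := by
  have h2 := i.2
  have h3 := j.2
  simp only [B, of_apply, Fin.ext_iff, mB]
  repeat' first | (exfalso; omega) | split
  all_goals omega

theorem C_mul {n : ℕ} (i j : Fin n) : C n i j * C n j i = mB n i j := by
  have h2 := i.2
  have h3 := j.2
  simp only [C, of_apply, Fin.ext_iff, mB]
  repeat' first | (exfalso; omega) | split
  all_goals omega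

theorem D_mul {n : ℕ} (hn : 4 ≤ n) (i j : Fin n) : D n i j * D n j i = mD n i j := by
  have h2 := i.2
  have h3 := j.2
  simp only [D, of_apply, Fin.ext_iff, mD]
  repeat' first | (exfalso; omega) | split
  all_goals omega

theorem exists_nat {n : ℕ} (σ : Perm (Fin n)) (m : ℕ → ℕ → ℤ) (h : ∀ i j : Fin n, m (σ i) (σ j) = m i j) :
    ∃ s : ℕ → ℕ, (∀ i : Fin n, s i = σ i) ∧ (∀ a, a < n → s a < n) ∧ ∀ a b, a < n → b < n → m (s a) (s b) = m a b := by
  refine ⟨fun a => if h : a < n then σ ⟨a, h⟩ else 0, fun i => dif_pos i.2, fun a ha => ?_, fun a b ha hb => ?_⟩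
  · simp only [dif_pos ha]
    exact Fin.is_lt _
  · simp only [dif_pos ha, dif_pos hb]
    exact h ⟨a, ha⟩ ⟨b, hb⟩

theorem down {s : ℕ → ℕ} {k : ℕ} (h1 : s k = k) (h2 : s (k + 1) = k + 1)
    (h : ∀ a, a < k → s (a + 1) = a + 1 → s (a + 2) = a + 2 → s a = a) (a : ℕ) (ha : a ≤ k) : s a = a := by
  have key : ∀ d a, a + d = k → s a = a ∧ s (a + 1) = a + 1 := fun d => by
    induction d with
    | zero => rintro a rfl; exact ⟨h1, h2⟩
    | succ d ih =>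
      intro a ha
      obtain ⟨h3, h4⟩ := ih (a + 1) (by omega)
      exact ⟨h a (by omega) h3 h4, h3⟩
  exact (key (k - a) a (by omega)).1

theorem mB_two {n a b : ℕ} (h : mB n a b = 2) : (a + 1 = b ∨ b + 1 = a) ∧ (a + 1 = n ∨ b + 1 = n) := by
  rw [mB] at h
  split_ifs at h <;> omega

theorem mB_one {n a b : ℕ} (h : mB n a b = 1) : (a + 1 = b ∨ b + 1 = a) ∧ a + 1 ≠ n ∧ b + 1 ≠ n := by
  rw [mB] at h
  split_ifs at h <;> omega

theorem mB_zero {n a b : ℕ} (h : mB n a b = 0) : a ≠ b := by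
  rw [mB] at h
  split_ifs at h <;> omega

theorem syB {n : ℕ} (hn : 3 ≤ n) (σ : Perm (Fin n)) (h : ∀ i j : Fin n, mB n (σ i) (σ j) = mB n i j) : σ = 1 := by
  obtain ⟨s, hs, lt, hm⟩ := exists_nat σ (mB n) h
  obtain ⟨k, rfl⟩ : ∃ k, n = k + 3 := ⟨n - 3, by omega⟩
  have h1 : s (k + 1) = k + 1 ∧ s (k + 2) = k + 2 := by
    have a1 := mB_two ((hm (k + 1) (k + 2) (by omega) (by omega)).trans (by simp [mB]))
    have a2 := mB_one ((hm k (k + 1) (by omega) (by omega)).trans (by simp [mB]))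
    have a4 := lt (k + 1) (by omega)
    have a5 := lt (k + 2) (by omega)
    omega
  have h2 := down h1.1 h1.2 fun a ha h3 h4 => by
    have a1 := mB_one ((hm a (a + 1) (by omega) (by omega)).trans
      (by rw [mB, if_neg (by omega), if_pos (by omega), if_neg (by omega)]))
    have a2 := mB_zero ((hm a (a + 2) (by omega) (by omega)).trans (by rw [mB, if_neg (by omega), if_neg (by omega)]))
    omega
  refine Equiv.ext fun i => Fin.ext ?_
  have h3 := i.2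
  rw [← hs, Perm.one_apply]
  by_cases h4 : i.val = k + 2
  · rw [h4, h1.2]
  · exact h2 _ (by omega)

theorem syD {k : ℕ} (σ : Perm (Fin (k + 5))) (h : ∀ i j : Fin (k + 5), mD (k + 5) (σ i) (σ j) = mD (k + 5) i j) :
    σ = 1 ∨ σ = swap ⟨k + 3, by omega⟩ ⟨k + 4, by omega⟩ := by
  obtain ⟨s, hs, lt, hm⟩ := exists_nat σ (mD (k + 5)) h
  have adj : ∀ a b, a < k + 5 → b < k + 5 → mD (k + 5) a b = 1 → (s a + 1 = s b ∧ s b + 1 < k + 5) ∨
      (s b + 1 = s a ∧ s a + 1 < k + 5) ∨ (s a = k + 2 ∧ s b = k + 4) ∨ (s b = k + 2 ∧ s a = k + 4) := fun a b ha hb h1 => by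
    rw [← hm a b ha hb, mD] at h1
    split_ifs at h1 <;> omega
  have ne : ∀ a b, a < k + 5 → b < k + 5 → a ≠ b → s a ≠ s b := fun a b ha hb h1 h2 => by
    have h3 := hm a b ha hb
    simp only [mD, if_pos h2, if_neg h1] at h3
    split_ifs at h3 <;> omega
  have a1 := adj (k + 1) (k + 2) (by omega) (by omega) (by simp [mD])
  have a2 := adj (k + 2) (k + 3) (by omega) (by omega) (by simp [mD])
  have a3 := adj (k + 2) (k + 4) (by omega) (by omega) (by simp [mD])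
  have a4 := adj k (k + 1) (by omega) (by omega) (by simp [mD])
  have b1 := ne (k + 1) (k + 3) (by omega) (by omega) (by omega)
  have b2 := ne (k + 1) (k + 4) (by omega) (by omega) (by omega)
  have b3 := ne (k + 3) (k + 4) (by omega) (by omega) (by omega)
  have b4 := ne k (k + 2) (by omega) (by omega) (by omega)
  have h1 : s (k + 2) = k + 2 := by
    clear a4 b4
    generalize s (k + 2) = x at a1 a2 a3 ⊢
    have c1 : s (k + 1) + 1 = x ∨ x + 1 = s (k + 1) ∨ x = k + 2 ∨ x = k + 4 ∧ s (k + 1) = k + 2 := by clear a2 a3; (clear * - a1; solve | lia | omega)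
    have c2 : s (k + 3) + 1 = x ∨ x + 1 = s (k + 3) ∨ x = k + 2 ∨ x = k + 4 ∧ s (k + 3) = k + 2 := by clear a1 a3 c1; (clear * - a2; solve | lia | omega)
    have c3 : s (k + 4) + 1 = x ∨ x + 1 = s (k + 4) ∨ x = k + 2 ∨ x = k + 4 ∧ s (k + 4) = k + 2 := by
      clear a1 a2 c1 c2; (clear * - a3; solve | lia | omega)
    (clear * - b1 b2 b3 a2 a3 c1; omega)
  have h2 : s (k + 1) = k + 1 := by
    rw [h1] at a1 b4
    have c1 : s (k + 1) = k + 1 ∨ s (k + 1) = k + 3 ∨ s (k + 1) = k + 4 := by clear a2 a3 a4; (clear * - a1; omega)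
    clear a1 a2 a3
    (clear * - a4 b4 c1; omega)
  have h5 : (s (k + 3) = k + 3 ∧ s (k + 4) = k + 4) ∨ (s (k + 3) = k + 4 ∧ s (k + 4) = k + 3) := by
    rw [h1] at a2 a3
    have c2 : s (k + 3) = k + 3 ∨ s (k + 3) = k + 4 := by clear a1 a3 a4; (clear * - a2 b1 h2; omega)
    have c3 : s (k + 4) = k + 3 ∨ s (k + 4) = k + 4 := by clear a1 a2 a4 c2; (clear * - a3 b2 h2; omega)
    clear a1 a2 a3 a4
    (clear * - b3 c2 c3; solve | lia | omega)
  clear a1 a2 a3 a4 b1 b2 b3 b4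
  have h3 := down h2 h1 fun a ha h3 h4 => by
    have c1 := adj a (a + 1) (by omega) (by omega) (by rw [mD, if_neg (by omega), if_pos (by (clear * - ha; omega))])
    have c2 := ne a (a + 2) (by omega) (by omega) (by omega)
    (clear * - ha h3 h4 c1 c2; solve | lia | omega)
  have h4 : ∀ i : Fin (k + 5), i.val ≤ k + 2 → (σ i).val = i := fun i hi => by
    rw [← hs]
    by_cases h5 : i.val = k + 2
    · rw [h5, h1]
    · exact h3 _ (by omega)
  refine h5.imp (fun h6 => Equiv.ext fun i => Fin.ext ?_) fun h6 => Equiv.ext fun i => Fin.ext ?_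
  · have h7 := i.2
    have h8 := h4 i
    have h9 := hs i
    rw [Perm.one_apply]
    rcases (by (clear * -; omega) : i.val ≤ k + 2 ∨ i.val = k + 3 ∨ i.val = k + 4) with e | e | e
    · exact h8 e
    · rw [← h9, e, h6.1]
    · rw [← h9, e, h6.2]
  · have h7 := i.2
    have h8 := h4 i
    have h9 := hs i
    rw [swap_apply_def]
    simp only [Fin.ext_iff]
    split_ifs with e e'
    · rw [← h9, e, h6.1]
    · rw [← h9, e', h6.2]
    · exact h8 (by (clear * - e e'; omega))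

theorem sy2 (σ : Perm (Fin 2)) : σ = 1 ∨ σ = swap 0 1 := by
  revert σ
  decide +kernel

theorem syF4 (σ : Perm (Fin 4)) (h : Sm F₄ σ) : σ = 1 ∨ σ = Fin.revPerm := by
  revert σ
  decide +kernel

theorem syD4 (τ σ : Perm (Fin 4)) (h : Sm (D 4) τ) (h1 : τ ≠ 1) (h2 : Sm (D 4) σ) (h3 : σ * τ = τ * σ) :
    σ = 1 ∨ σ = τ ∨ σ = τ * τ := by
  revert σ
  revert τ
  decide +kernel

theorem syE6 (σ : Perm (Fin 6)) (h : Sm E₆ σ) : σ = 1 ∨ σ = swap 0 5 * swap 2 4 := by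
  have key : ∀ a3 a1 : Fin 6, E₆ a1 a3 * E₆ a3 a1 = 1 → ∀ a2, E₆ a2 a3 * E₆ a3 a2 = 1 → E₆ a1 a2 * E₆ a2 a1 = 0 →
      ∀ a4, E₆ a4 a3 * E₆ a3 a4 = 1 → E₆ a1 a4 * E₆ a4 a1 = 0 → E₆ a2 a4 * E₆ a4 a2 = 0 →
      ∀ a0, E₆ a0 a2 * E₆ a2 a0 = 1 → E₆ a0 a3 * E₆ a3 a0 = 0 → ∀ a5, E₆ a5 a4 * E₆ a4 a5 = 1 → E₆ a5 a3 * E₆ a3 a5 = 0 →
      ![a0, a1, a2, a3, a4, a5] = (1 : Perm (Fin 6)) ∨ ![a0, a1, a2, a3, a4, a5] = (swap 0 5 * swap 2 4 : Perm (Fin 6)) := by
    decide +kernel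
  have h1 : ![σ 0, σ 1, σ 2, σ 3, σ 4, σ 5] = σ := funext fun i => by fin_cases i <;> rfl
  have h2 := key _ _ (h 1 3) _ (h 2 3) (h 1 2) _ (h 4 3) (h 1 4) (h 2 4) _ (h 0 2) (h 0 3) _ (h 5 4) (h 5 3)
  rw [h1] at h2
  exact h2.imp DFunLike.coe_injective.eq_iff.1 DFunLike.coe_injective.eq_iff.1

set_option synthInstance.maxSize 2000 in
theorem syE7 (σ : Perm (Fin 7)) (h : Sm E₇ σ) : σ = 1 := by
  have key : ∀ a3 a1 : Fin 7, E₇ a1 a3 * E₇ a3 a1 = 1 → ∀ a2, E₇ a2 a3 * E₇ a3 a2 = 1 → E₇ a1 a2 * E₇ a2 a1 = 0 →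
      ∀ a4, E₇ a4 a3 * E₇ a3 a4 = 1 → E₇ a1 a4 * E₇ a4 a1 = 0 → E₇ a2 a4 * E₇ a4 a2 = 0 →
      ∀ a0, E₇ a0 a2 * E₇ a2 a0 = 1 → E₇ a0 a3 * E₇ a3 a0 = 0 → ∀ a5, E₇ a5 a4 * E₇ a4 a5 = 1 → E₇ a5 a3 * E₇ a3 a5 = 0 →
      ∀ a6, E₇ a6 a5 * E₇ a5 a6 = 1 → E₇ a6 a4 * E₇ a4 a6 = 0 → ![a0, a1, a2, a3, a4, a5, a6] = (1 : Perm (Fin 7)) := by
    decide +kernel
  have h1 : ![σ 0, σ 1, σ 2, σ 3, σ 4, σ 5, σ 6] = σ := funext fun i => by fin_cases i <;> rfl
  have h2 := key _ _ (h 1 3) _ (h 2 3) (h 1 2) _ (h 4 3) (h 1 4) (h 2 4) _ (h 0 2) (h 0 3) _ (h 5 4) (h 5 3) _ (h 6 5)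
    (h 6 4)
  rw [h1] at h2
  exact DFunLike.coe_injective h2

set_option synthInstance.maxSize 2000 in
theorem syE8 (σ : Perm (Fin 8)) (h : Sm E₈ σ) : σ = 1 := by
  have key : ∀ a3 a1 : Fin 8, E₈ a1 a3 * E₈ a3 a1 = 1 → ∀ a2, E₈ a2 a3 * E₈ a3 a2 = 1 → E₈ a1 a2 * E₈ a2 a1 = 0 →
      ∀ a4, E₈ a4 a3 * E₈ a3 a4 = 1 → E₈ a1 a4 * E₈ a4 a1 = 0 → E₈ a2 a4 * E₈ a4 a2 = 0 →
      ∀ a0, E₈ a0 a2 * E₈ a2 a0 = 1 → E₈ a0 a3 * E₈ a3 a0 = 0 → ∀ a5, E₈ a5 a4 * E₈ a4 a5 = 1 → E₈ a5 a3 * E₈ a3 a5 = 0 →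
      ∀ a6, E₈ a6 a5 * E₈ a5 a6 = 1 → E₈ a6 a4 * E₈ a4 a6 = 0 → ∀ a7, E₈ a7 a6 * E₈ a6 a7 = 1 → E₈ a7 a5 * E₈ a5 a7 = 0 →
      ![a0, a1, a2, a3, a4, a5, a6, a7] = (1 : Perm (Fin 8)) := by
    decide +kernel
  have h1 : ![σ 0, σ 1, σ 2, σ 3, σ 4, σ 5, σ 6, σ 7] = σ := funext fun i => by fin_cases i <;> rfl
  have h2 := key _ _ (h 1 3) _ (h 2 3) (h 1 2) _ (h 4 3) (h 1 4) (h 2 4) _ (h 0 2) (h 0 3) _ (h 5 4) (h 5 3) _ (h 6 5)
    (h 6 4) _ (h 7 6) (h 7 5)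
  rw [h1] at h2
  exact DFunLike.coe_injective h2

end Cfsg.Agent.MO.Fm.Dia

private theorem dce_a5a5526bdceb : _root_.True := by
  try have : _root_.True := by simp only [_root_.Cfsg.Agent.MO.Fm.Dia.vC.eq_1]
  try have : _root_.True := by simp only [_root_.Cfsg.Agent.MO.Fm.Dia.vB.eq_1]
  try have : _root_.True := by simp only [_root_.Cfsg.Agent.MO.Fm.Dia.mD.eq_1]
  try have : _root_.True := by simp only [_root_.Cfsg.Agent.MO.Fm.Dia.mB.eq_1]
  try have : _root_.True := by simp only [_root_.Cfsg.Agent.MO.Fm.Dia.vD.eq_1]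
  exact _root_.True.intro
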